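import Cfsg.Agent.H756.HM.Defs

/-!
# S5175: the exact statements of the tasks, as propositions

Each task proves one `St...` (a theorem `foo : St...`, any universe). The assembly uses only these.
-/

set_option autoImplicit false

namespace Cfsg.Agent.H756.HM

open Cfsg Cfsg.FusionSystem
open scoped commutatorElement

universe u

/-! ### T1 -/

/-- T1: the situation. -/
def StSit : Prop :=
  ∀ {Ω : Type u} [Group Ω] {S : Subgroup Ω} [Finite S], IsPGroup 2 S →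
    ∀ (F : FusionSystem S), F.IsSaturated 2 → HMin F →
    ∀ (N : FusionSystem S), N.IsSaturated 2 → N ≤ F → N ≠ F → HPar F N →
    ∃ (T : Subgroup Ω) (P : Type u) (_ : Group P), Nonempty (Sit F T P)

/-! ### T2 -/

/-- T2a: chains in centralizers. -/
def StChain : Prop :=
  ∀ {Ω : Type u} [Group Ω] {S : Subgroup Ω} [Finite S], IsPGroup 2 S →
    ∀ (F : FusionSystem S), F.IsSaturated 2 → HMin F →
    ∀ U : Subgroup Ω, U ≤ S → U ≠ ⊥ →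
    ∃ (n : ℕ) (C : ℕ → Subgroup Ω), C 0 = ⊥ ∧ C n = centralizerIn S U ∧ Monotone C ∧
      (∀ i, ⁅C (i + 1), C (i + 1)⁆ ≤ C i) ∧
      ∀ i, ∀ P : Subgroup Ω, P ≤ C i → ∀ φ ∈ F.centralizerHom U P, ∀ x : P, φ x ∈ C i

/-- T2b: chains in normalizers of fully normalized subgroups. -/
def StChainN : Prop :=
  ∀ {Ω : Type u} [Group Ω] {S : Subgroup Ω} [Finite S], IsPGroup 2 S →
    ∀ (F : FusionSystem S), F.IsSaturated 2 → HMin F →
    ∀ U : Subgroup Ω, F.IsFullyNormalized U → U ≠ ⊥ →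
    ∃ (n : ℕ) (C : ℕ → Subgroup Ω), C 0 = ⊥ ∧ C n = normalizerIn S U ∧ Monotone C ∧
      (∀ i, ⁅C (i + 1), C (i + 1)⁆ ≤ C i) ∧
      ∀ i, ∀ P : Subgroup Ω, P ≤ C i → ∀ φ ∈ F.normalizerHom U P, ∀ x : P, φ x ∈ C i

/-! ### T3 - T5: the group `P` -/

/-- T3: blocks. -/
def StBlk : Prop :=
  ∀ {P : Type u} [Group P] [Finite P] (T : Sylow 2 P), IsPMinimal 2 P →
    Subgroup.centralizer (pCore 2 P : Set P) ≤ pCore 2 P →
    (∀ C : Subgroup ↥(T : Subgroup P), C.Characteristic → C ≠ ⊥ → ¬ (C.map (T : Subgroup P).subtype).Normal) →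
    Nonempty (Blk (T : Subgroup P))

/-- T4: the offender bound. -/
def StOff : Prop :=
  ∀ {P : Type u} [Group P] [Finite P] (T : Sylow 2 P), Blk (T : Subgroup P) →
    ∀ X : Subgroup P, X ≤ T → (T : Subgroup P) ≤ Subgroup.normalizer (X : Set P) →
    (∀ a ∈ X, ∀ b ∈ X, a * b = b * a) → (∀ a ∈ X, a ^ 2 = 1) →
    (pCore 2 P ⊓ X).relIndex X ≤
      (⁅pCore 2 P, pResidual 2 P⁆ ⊓ Subgroup.centralizer (X : Set P)).relIndex ⁅pCore 2 P, pResidual 2 P⁆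

/-- T5: the block data, once there is an offender with equality not contained in `O_2(P)`. -/
def StBD : Prop :=
  ∀ {P : Type u} [Group P] [Finite P] (T : Sylow 2 P), Blk (T : Subgroup P) →
    ∀ X : Subgroup P, X ≤ T → (T : Subgroup P) ≤ Subgroup.normalizer (X : Set P) →
    (∀ a ∈ X, ∀ b ∈ X, a * b = b * a) → (∀ a ∈ X, a ^ 2 = 1) → ¬ X ≤ pCore 2 P →
    (⁅pCore 2 P, pResidual 2 P⁆ ⊓ Subgroup.centralizer (X : Set P)).relIndex ⁅pCore 2 P, pResidual 2 P⁆ ≤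
      (pCore 2 P ⊓ X).relIndex X →
    Nonempty (BD (T : Subgroup P))

/-! ### T6, T7 -/

/-- T6: the case `T = S`: there is a nontrivial `𝔸`-invariant subgroup of `T` normal in `P`. -/
def StTop : Prop :=
  ∀ {P : Type u} [Group P] [Finite P] (T : Sylow 2 P), (T : Subgroup P) ≠ ⊥ → BW (T : Subgroup P) →
    (∀ β : MulAut ↥(T : Subgroup P),
      (∃ w : ↥(T : Subgroup P), (w : P) ∈ ⁅pCore 2 P, pResidual 2 P⁆ ∧ ((β w : ↥(T : Subgroup P)) : P) ∉ pCore 2 P) →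
      Nonempty (BD (T : Subgroup P))) →
    ∀ 𝔸 : Subgroup (MulAut ↥(T : Subgroup P)), (MulAut.conj : ↥(T : Subgroup P) →* MulAut ↥(T : Subgroup P)).range ≤ 𝔸 →
    Odd ((MulAut.conj : ↥(T : Subgroup P) →* MulAut ↥(T : Subgroup P)).range.relIndex 𝔸) →
    ⁅pCore 2 P, pResidual 2 P⁆ ≠ ⊥ →
    ∃ D : Subgroup ↥(T : Subgroup P), D ≠ ⊥ ∧ (D.map (T : Subgroup P).subtype).Normal ∧
      ∀ β ∈ 𝔸, D.map β.toMonoidHom = D

/-- two directions: `E₁` acting on `V` and `E₂` acting on `V` (so `E₂^ξ` on `V^ξ`), both centralizing `U ≠ 1` -/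
def TwoDir {P : Type*} [Group P] (T : Subgroup P) (ξ : MulAut T) : Prop :=
  ∃ (E₁ E₂ : Subgroup P) (U : Subgroup T), U ≠ ⊥ ∧
    U ≤ (pCore 2 P).subgroupOf T ∧ U ≤ ((pCore 2 P).subgroupOf T).map ξ.toMonoidHom ∧
    (∀ u ∈ U, ∀ e ∈ E₁, e * (u : P) = u * e) ∧
    (∀ u ∈ U, ∀ e ∈ E₂, e * ((ξ⁻¹ u : T) : P) = (ξ⁻¹ u : T) * e) ∧
    (∀ X : Subgroup P, X ≤ pCore 2 P → E₁ ≤ Subgroup.normalizer (X : Set P) →
      ¬ X ≤ Subgroup.centralizer (E₁ : Set P) → ⁅pCore 2 P, E₁⁆ ≤ X) ∧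
    (∀ X : Subgroup P, X ≤ pCore 2 P → E₂ ≤ Subgroup.normalizer (X : Set P) →
      ¬ X ≤ Subgroup.centralizer (E₂ : Set P) → ⁅pCore 2 P, E₂⁆ ≤ X) ∧
    ∃ w₁ w₂ : T, (w₁ : P) ∈ ⁅pCore 2 P, E₁⁆ ∧ (w₂ : P) ∈ ⁅pCore 2 P, E₂⁆ ∧
      ((⁅w₁, ξ w₂⁆ : T) : P) ∉ Subgroup.centralizer (E₁ : Set P) ∧
      ((ξ⁻¹ ⁅w₁, ξ w₂⁆ : T) : P) ∉ Subgroup.centralizer (E₂ : Set P)

/-- the result of the swap analysis for `P`, `T`, `ξ` -/
structure Swap {P : Type*} [Group P] (T : Subgroup P) (ξ : MulAut T) (d : BD T) : Prop where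
  comm : ∀ a ∈ pCore 2 P, ∀ b ∈ pCore 2 P, a * b = b * a
  sq : ∀ a ∈ pCore 2 P, a ^ 2 = 1
  CT : T ⊓ Subgroup.centralizer (pCore 2 P : Set P) = pCore 2 P
  T0 : (pCore 2 P).subgroupOf T ⊔ ((pCore 2 P).subgroupOf T).map ξ.toMonoidHom = d.T0.subgroupOf T
  /-- `D ∩ D^ξ = 1` for `D = C_{O_2(P)}(O²(P))` -/
  DD : (pCore 2 P ⊓ Subgroup.centralizer (pResidual 2 P : Set P)).subgroupOf T ⊓
    ((pCore 2 P ⊓ Subgroup.centralizer (pResidual 2 P : Set P)).subgroupOf T).map ξ.toMonoidHom = ⊥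

/-- T7a: swap, first part. -/
def StSwap : Prop :=
  ∀ {P : Type u} [Group P] [Finite P] (T : Sylow 2 P), BW (T : Subgroup P) → ∀ d : BD (T : Subgroup P),
    ∀ ξ : MulAut ↥(T : Subgroup P), (∃ t : ↥(T : Subgroup P), ξ * ξ = MulAut.conj t) →
    (∀ D : Subgroup ↥(T : Subgroup P), D ≠ ⊥ → (D.map (T : Subgroup P).subtype).Normal →
      D.map ξ.toMonoidHom ≠ D) →
    Swap (T : Subgroup P) ξ d

/-- T7b: two directions if the block data do not have rank one. -/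
def StTwoDir : Prop :=
  ∀ {P : Type u} [Group P] [Finite P] (T : Sylow 2 P) (d : BD (T : Subgroup P))
    (ξ : MulAut ↥(T : Subgroup P)), (∃ t : ↥(T : Subgroup P), ξ * ξ = MulAut.conj t) →
    Swap (T : Subgroup P) ξ d → (∀ j, d.B j ≠ pCore 2 P) → TwoDir (T : Subgroup P) ξ

/-- T7c: two directions contradict solvability of the local subsystems. -/
def StKill : Prop :=
  ∀ {Ω : Type u} [Group Ω] {S : Subgroup Ω} [Finite S], IsPGroup 2 S →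
    ∀ (F : FusionSystem S), F.IsSaturated 2 → HMin F →
    ∀ (T : Subgroup Ω) (P : Type u) [Group P] (s : Sit F T P) (x : Ω), x ∈ S →
    x ∈ Subgroup.normalizer (T : Set Ω) → x ∉ T → x ^ 2 ∈ T →
    (∀ a ∈ pCore 2 P, ∀ b ∈ pCore 2 P, a * b = b * a) →
    ∀ ξ : MulAut ↥(s.ι.range), (∀ t : T, ∀ h : x * t * x⁻¹ ∈ T, ((ξ ⟨s.ι t, ⟨t, rfl⟩⟩ : ↥(s.ι.range)) : P) =
      s.ι ⟨x * t * x⁻¹, h⟩) → ¬ TwoDir s.ι.range ξ

/-- T7d: the configuration, from rank one linear block data. -/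
def StConf : Prop :=
  ∀ {Ω : Type u} [Group Ω] {S : Subgroup Ω} [Finite S], IsPGroup 2 S →
    ∀ (F : FusionSystem S), F.IsSaturated 2 →
    ∀ (T : Subgroup Ω) (P : Type u) [Group P] (s : Sit F T P) (x : Ω), x ∈ S →
    x ∈ Subgroup.normalizer (T : Set Ω) → x ∉ T → x ^ 2 ∈ T →
    ∀ ξ : MulAut ↥(s.ι.range), (∀ t : T, ∀ h : x * t * x⁻¹ ∈ T, ((ξ ⟨s.ι t, ⟨t, rfl⟩⟩ : ↥(s.ι.range)) : P) =
      s.ι ⟨x * t * x⁻¹, h⟩) →
    ∀ d : BD s.ι.range, Swap s.ι.range ξ d → LinOne P d.W d.T0 d.q →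
    ∃ (K : Type) (_ : Field K) (_ : Fintype K) (V : Subgroup Ω), Nonempty (Conf F K V T x)

/-! ### q ≥ 4 -/

/-- T8 -/
def StNor : Prop :=
  ∀ {Ω : Type u} [Group Ω] {S : Subgroup Ω} [Finite S], IsPGroup 2 S →
    ∀ (F : FusionSystem S), F.IsSaturated 2 → HMin F →
    ∀ (K : Type) [Field K] [Fintype K] (V T : Subgroup Ω) (x : Ω) (c : Conf F K V T x), 4 ≤ Fintype.card K →
    ∀ a ∈ F.autGroup V, ∀ e ∈ c.E, a * e * a⁻¹ ∈ c.E

/-- T9 -/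
def StTyp : Prop :=
  ∀ {Ω : Type u} [Group Ω] {S : Subgroup Ω} [Finite S], IsPGroup 2 S →
    ∀ (F : FusionSystem S), F.IsSaturated 2 →
    ∀ (K : Type) [Field K] [Fintype K] (V T : Subgroup Ω) (x : Ω) (c : Conf F K V T x), 4 ≤ Fintype.card K →
    (∀ a ∈ F.autGroup V, ∀ e ∈ c.E, a * e * a⁻¹ ∈ c.E) →
    fixS V c.E = ⊥ ∨ (Nat.card (fixS V c.E) = Fintype.card K ∧ comS V c.E = V)

/-- T10 -/
def StField : Prop :=
  ∀ {Ω : Type u} [Group Ω] {S : Subgroup Ω} [Finite S], IsPGroup 2 S →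
    ∀ (F : FusionSystem S), F.IsSaturated 2 → HMin F →
    ∀ (K : Type) [Field K] [Fintype K] (V T : Subgroup Ω) (x : Ω) (c : Conf F K V T x), 4 ≤ Fintype.card K →
    (∀ a ∈ F.autGroup V, ∀ e ∈ c.E, a * e * a⁻¹ ∈ c.E) →
    (fixS V c.E = ⊥ ∨ (Nat.card (fixS V c.E) = Fintype.card K ∧ comS V c.E = V)) →
    T = V ⊔ cj x V

/-- T11 -/
def StIdx : Prop :=
  ∀ {Ω : Type u} [Group Ω] {S : Subgroup Ω} [Finite S], IsPGroup 2 S →
    ∀ (F : FusionSystem S), F.IsSaturated 2 →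
    ∀ (K : Type) [Field K] [Fintype K] (V T : Subgroup Ω) (x : Ω) (c : Conf F K V T x), 4 ≤ Fintype.card K →
    T = V ⊔ cj x V → (fixS V c.E = ⊥ ∨ (Nat.card (fixS V c.E) = Fintype.card K ∧ comS V c.E = V)) →
    T.relIndex S = 2

/-- T12: essential subgroups not contained in `T` occur only for `q = 4`, `|V| = 16`; then they have order 32. -/
def StEss : Prop :=
  ∀ {Ω : Type u} [Group Ω] {S : Subgroup Ω} [Finite S], IsPGroup 2 S →
    ∀ (F : FusionSystem S), F.IsSaturated 2 →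
    ∀ (K : Type) [Field K] [Fintype K] (V T : Subgroup Ω) (x : Ω) (b : Big F K V T x) (R : Subgroup Ω),
    F.IsEssential 2 R → ¬ R ≤ T →
    Fintype.card K = 4 ∧ fixS V b.E = ⊥ ∧ Nat.card R = 32 ∧ V ⊓ cj x V ≤ R ∧
      S ≤ Subgroup.normalizer (R : Set Ω) ∧ Nat.card (Subgroup.center R) = 2 ∧
      (∃ α ∈ F.autGroup R, ∃ z : R, (z : Ω) ∈ V ⊓ cj x V ∧ ((α z : R) : Ω) ∉ T)

/-- T12': essential subgroups inside `T`. -/
def StEssT : Prop :=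
  ∀ {Ω : Type u} [Group Ω] {S : Subgroup Ω} [Finite S], IsPGroup 2 S →
    ∀ (F : FusionSystem S), F.IsSaturated 2 →
    ∀ (K : Type) [Field K] [Fintype K] (V T : Subgroup Ω) (x : Ω), Big F K V T x → ∀ (R : Subgroup Ω),
    F.IsEssential 2 R → R ≤ T → R = V ∨ R = cj x V ∨ R = T

/-- L -/
def StL : Prop :=
  ∀ {Ω : Type u} [Group Ω] {S : Subgroup Ω} [Finite S], IsPGroup 2 S →
    ∀ (F : FusionSystem S), F.IsSaturated 2 →
    ∀ (K : Type) [Field K] [Fintype K] (V T : Subgroup Ω) (x : Ω) (b : Big F K V T x),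
    fixS V b.E = ⊥ → (∀ R : Subgroup Ω, F.IsEssential 2 R → R ≤ T) → Concl F

/-- SP -/
def StSP : Prop :=
  ∀ {Ω : Type u} [Group Ω] {S : Subgroup Ω} [Finite S], IsPGroup 2 S →
    ∀ (F : FusionSystem S), F.IsSaturated 2 →
    ∀ (K : Type) [Field K] [Fintype K] (V T : Subgroup Ω) (x : Ω) (b : Big F K V T x),
    Nat.card (fixS V b.E) = Fintype.card K → comS V b.E = V →
    (∀ R : Subgroup Ω, F.IsEssential 2 R → R ≤ T) → Concl F

/-- J3 -/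
def StJ : Prop :=
  ∀ {Ω : Type u} [Group Ω] {S : Subgroup Ω} [Finite S], IsPGroup 2 S →
    ∀ (F : FusionSystem S), F.IsSaturated 2 →
    ∀ (K : Type) [Field K] [Fintype K] (V T : Subgroup Ω) (x : Ω) (b : Big F K V T x),
    Fintype.card K = 4 → fixS V b.E = ⊥ → (∃ R : Subgroup Ω, F.IsEssential 2 R ∧ ¬ R ≤ T) → Concl F

/-! ### q = 2 -/

/-- Q2a: structure for `q = 2`. -/
def StQ : Prop :=
  ∀ {Ω : Type u} [Group Ω] {S : Subgroup Ω} [Finite S], IsPGroup 2 S →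
    ∀ (F : FusionSystem S), F.IsSaturated 2 →
    ∀ (K : Type) [Field K] [Fintype K] (V T : Subgroup Ω) (x : Ω), Conf F K V T x → Fintype.card K = 2 →
    (Nat.card V = 4 ∧ ∃ α ∈ F.autGroup V, orderOf α = 3) ∨
    (Nat.card S = 32 ∧ ∃ r w d : Ω, Subgroup.closure {r, w, d} = S ∧ orderOf r = 8 ∧ w ^ 2 = 1 ∧ d ^ 2 = 1 ∧
      w * r * w⁻¹ = r⁻¹ ∧ d * r * d⁻¹ = r ^ 5 ∧ w * d = d * w ∧ V = Subgroup.closure {r ^ 4, w, d} ∧
      ∃ α ∈ F.autGroup V, orderOf α = 3 ∧ (∀ v : V, (v : Ω) = d → α v = v) ∧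
        ∀ v : V, (v : Ω) ∈ Subgroup.closure {r ^ 4, w} → ((α v : V) : Ω) ∈ Subgroup.closure {r ^ 4, w})

/-- Q2b: self-centralizing four-group, `S` dihedral. -/
def StDih : Prop :=
  ∀ {Ω : Type u} [Group Ω] {S : Subgroup Ω} [Finite S], IsPGroup 2 S →
    ∀ (F : FusionSystem S), F.IsSaturated 2 →
    ∀ m : ℕ, 8 ≤ m → Nonempty (↥S ≃* DihedralGroup m) →
    ∀ V : Subgroup Ω, V ≤ S → Nat.card V = 4 → (∀ v ∈ V, v ^ 2 = 1) → (∃ α ∈ F.autGroup V, orderOf α = 3) → Concl F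

/-- Q2c: self-centralizing four-group, `S` quasi-dihedral. -/
def StSD : Prop :=
  ∀ {Ω : Type u} [Group Ω] {S : Subgroup Ω} [Finite S], IsPGroup 2 S →
    ∀ (F : FusionSystem S), F.IsSaturated 2 → HMin F → Cfsg.IsQuasiDihedral ↥S →
    ∀ V : Subgroup Ω, V ≤ S → Nat.card V = 4 → (∀ v ∈ V, v ^ 2 = 1) → (∃ α ∈ F.autGroup V, orderOf α = 3) → Concl F

/-- Q2d: `S = Hol(C_8)`, order 32. -/
def StHol : Prop :=
  ∀ {Ω : Type u} [Group Ω] {S : Subgroup Ω} [Finite S], IsPGroup 2 S →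
    ∀ (F : FusionSystem S), F.IsSaturated 2 → Nat.card S = 32 →
    ∀ r w d : Ω, Subgroup.closure {r, w, d} = S → orderOf r = 8 → w ^ 2 = 1 → d ^ 2 = 1 →
      w * r * w⁻¹ = r⁻¹ → d * r * d⁻¹ = r ^ 5 → w * d = d * w →
      ∀ V : Subgroup Ω, V = Subgroup.closure {r ^ 4, w, d} →
      (∃ α ∈ F.autGroup V, orderOf α = 3 ∧ (∀ v : V, (v : Ω) = d → α v = v) ∧
        ∀ v : V, (v : Ω) ∈ Subgroup.closure {r ^ 4, w} → ((α v : V) : Ω) ∈ Subgroup.closure {r ^ 4, w}) → Concl F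

/-- Q2e: a 2-group with a self-centralizing four-group `V` which is properly contained in a proper subgroup
`N_S(V) < S` is dihedral or quasi-dihedral of order at least 16. -/
def StMax : Prop :=
  ∀ {Ω : Type u} [Group Ω] {S : Subgroup Ω} [Finite S], IsPGroup 2 S →
    ∀ V : Subgroup Ω, V ≤ S → Nat.card V = 4 → (∀ v ∈ V, v ^ 2 = 1) → centralizerIn S V = V →
    normalizerIn S V ≠ S →
    (∃ m : ℕ, 8 ≤ m ∧ Nonempty (↥S ≃* DihedralGroup m)) ∨ Cfsg.IsQuasiDihedral ↥S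

end Cfsg.Agent.H756.HM
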