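import Cfsg.Agent.H756.HM.Stmts
import Cfsg.Agent.H802.FusNorm
import Cfsg.Agent.H802.FusEss
import Cfsg.Agent.Lib.Cores
import Cfsg.Agent.Transfer.Residual

/-!
# S5175: assembly
-/

set_option autoImplicit false

namespace Cfsg.Agent.H756.HM

open Cfsg Cfsg.FusionSystem Cfsg.Agent.H802
open scoped commutatorElement

universe u

section
variable {Ω : Type u} [Group Ω] {S : Subgroup Ω}

theorem autInducedBy_self (S : Subgroup Ω) :
    autInducedBy S S = (MulAut.conj : S →* MulAut S).range := by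
  ext α
  rw [mem_autInducedBy_iff]
  constructor
  · rintro ⟨g, hg, h⟩
    exact ⟨⟨g, hg⟩, MulEquiv.ext fun x => Subtype.ext (h x).symm⟩
  · rintro ⟨g, rfl⟩
    exact ⟨g, g.2, fun x => rfl⟩

theorem odd_index_top [Finite S] (hS : IsPGroup 2 S) {F : FusionSystem S} (hF : F.IsSaturated 2) :
    (MulAut.conj : S →* MulAut S).range ≤ F.autGroup S ∧
    Odd ((MulAut.conj : S →* MulAut S).range.relIndex (F.autGroup S)) := by
  have : Fact (Nat.Prime 2) := ⟨Nat.prime_two⟩
  have hle : (MulAut.conj : S →* MulAut S).range ≤ F.autGroup S := by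
    rw [← autInducedBy_self]
    exact autInducedBy_le_autGroup F le_rfl
  refine ⟨hle, ?_⟩
  have hfn : F.IsFullyNormalized S := by
    refine ⟨le_rfl, fun Q hQ => ?_⟩
    have h1 : normalizerIn S Q ≤ S := inf_le_left
    have h2 : normalizerIn S S = S := inf_eq_left.2 Subgroup.le_normalizer
    rw [h2]
    exact Nat.card_mono (Set.toFinite (S : Set Ω)) h1
  obtain ⟨-, R, hR⟩ := isFullyAutomized_of_isFullyNormalized hS hF hfn
  rw [autInducedBy_self] at hR
  have h2 : ¬ 2 ∣ (R : Subgroup (F.autGroup S)).index := R.not_dvd_index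
  rw [hR] at h2
  rw [Nat.odd_iff]
  have h3 : (MulAut.conj : S →* MulAut S).range.relIndex (F.autGroup S) =
      ((MulAut.conj : S →* MulAut S).range.subgroupOf (F.autGroup S)).index := rfl
  rw [h3]
  omega

end

/-- the case `T < S`: everything after the configuration -/
theorem of_conf (hNor : StNor.{u}) (hEss : StEss.{u}) (hTyp : StTyp.{u}) (hField : StField.{u}) (hIdx : StIdx.{u})
    (hL : StL.{u}) (hSP : StSP.{u}) (hJ : StJ.{u}) (hQ : StQ.{u}) (hDih : StDih.{u}) (hSD : StSD.{u})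
    (hHol : StHol.{u}) (hMax : StMax.{u})
    {Ω : Type u} [Group Ω] {S : Subgroup Ω} [Finite S] (hS : IsPGroup 2 S) (F : FusionSystem S)
    (hF : F.IsSaturated 2) (hmin : HMin F) (K : Type) [Field K] [Fintype K] (V T : Subgroup Ω) (x : Ω)
    (c : Conf F K V T x) : Concl F := by
  by_cases h4 : 4 ≤ Fintype.card K
  · have h1 := hNor hS F hF hmin K V T x c h4
    have h2 := hTyp hS F hF K V T x c h4 h1
    have h3 := hField hS F hF hmin K V T x c h4 h1 h2
    have h5 := hIdx hS F hF K V T x c h4 h3 h2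
    let b : Big F K V T x := { c with q4 := h4, T_eq := h3, S_idx := h5, E_nor := h1, typ := h2 }
    by_cases hess : ∀ R : Subgroup Ω, F.IsEssential 2 R → R ≤ T
    · rcases h2 with h | ⟨h, h'⟩
      · exact hL hS F hF K V T x b h hess
      · exact hSP hS F hF K V T x b h h' hess
    · push Not at hess
      obtain ⟨R, hR, hRT⟩ := hess
      obtain ⟨e1, e2, -⟩ := hEss hS F hF K V T x b R hR hRT
      exact hJ hS F hF K V T x b e1 e2 ⟨R, hR, hRT⟩
  · have h2 : Fintype.card K = 2 := by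
      have hn := c.hn
      rw [c.hK] at h4 ⊢
      have : c.n = 1 := by
        by_contra hne
        have h3 : 2 ≤ c.n := by omega
        exact h4 (le_trans (by norm_num) (Nat.pow_le_pow_right (by norm_num : 0 < 2) h3))
      rw [this]; norm_num
    rcases hQ hS F hF K V T x c h2 with ⟨hV, hα⟩ | ⟨hcard, r, w, d, h⟩
    · have hcent := c.cent
      have hN : normalizerIn S V ≠ S := by
        rw [c.nor]
        rintro rfl
        exact c.x_not c.x_mem
      rcases hMax hS V c.V_le hV c.el hcent hN with ⟨m, hm, hD⟩ | hsd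
      · exact hDih hS F hF m hm hD V c.V_le hV c.el hα
      · exact hSD hS F hF hmin hsd V c.V_le hV c.el hα
    · obtain ⟨h1, h2, h3, h4, h5, h6, h7, h8, h9⟩ := h
      exact hHol hS F hF hcard r w d h1 h2 h3 h4 h5 h6 h7 V h8 h9


section Local
variable {P : Type*} [Group P]

local notation "Qp" => pCore 2 P
local notation "Wp" => ⁅pCore 2 P, pResidual 2 P⁆

theorem W_normal : (⁅pCore 2 P, pResidual 2 P⁆ : Subgroup P).Normal := by
  have := Lib.Cores.pCore_normal (G := P) 2
  have := Transfer.Residual.pResidual_characteristic (G := P) 2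
  infer_instance

theorem W_le : (⁅pCore 2 P, pResidual 2 P⁆ : Subgroup P) ≤ pCore 2 P := by
  have := Lib.Cores.pCore_normal (G := P) 2
  exact Subgroup.commutator_le_left _ _

/-- the image in `P` of a subgroup of `P` contained in `T` under an automorphism of `T` -/
def im {T : Subgroup P} (γ : MulAut T) (A : Subgroup P) : Subgroup P :=
  ((A.subgroupOf T).map γ.toMonoidHom).map T.subtype

theorem mem_im {T : Subgroup P} (γ : MulAut T) (A : Subgroup P) (g : P) :
    g ∈ im γ A ↔ ∃ t : T, (t : P) ∈ A ∧ ((γ t : T) : P) = g := by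
  unfold im
  simp only [Subgroup.mem_map, Subgroup.mem_subgroupOf]
  constructor
  · rintro ⟨x, ⟨t, ht, rfl⟩, rfl⟩
    exact ⟨t, ht, rfl⟩
  · rintro ⟨t, ht, rfl⟩
    exact ⟨γ t, ⟨t, ht, rfl⟩, rfl⟩

theorem im_le {T : Subgroup P} (γ : MulAut T) (A : Subgroup P) : im γ A ≤ T := by
  intro g hg
  obtain ⟨t, -, rfl⟩ := (mem_im γ A g).1 hg
  exact (γ t).2

theorem im_subgroupOf {T : Subgroup P} (γ : MulAut T) (A : Subgroup P) :
    (im γ A).subgroupOf T = (A.subgroupOf T).map γ.toMonoidHom := by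
  ext t
  rw [Subgroup.mem_subgroupOf, mem_im, Subgroup.mem_map]
  constructor
  · rintro ⟨s, hs, h⟩
    exact ⟨s, hs, Subtype.ext h⟩
  · rintro ⟨s, hs, h⟩
    exact ⟨s, hs, congrArg Subtype.val h⟩

theorem le_normalizer_im {T : Subgroup P} (γ : MulAut T) (A : Subgroup P) [A.Normal] :
    T ≤ Subgroup.normalizer (im γ A : Set P) := by
  have h1 : ((A.subgroupOf T).map γ.toMonoidHom).Normal :=
    Subgroup.Normal.map inferInstance _ γ.surjective
  intro t ht
  rw [Subgroup.mem_normalizer_iff]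
  have key : ∀ t ∈ T, ∀ g ∈ im γ A, t * g * t⁻¹ ∈ im γ A := by
    intro t ht g hg
    obtain ⟨s, hs, rfl⟩ := (mem_im γ A g).1 hg
    have h2 := h1.conj_mem (γ s) ⟨s, hs, rfl⟩ ⟨t, ht⟩
    obtain ⟨r, hr, h3⟩ := h2
    exact (mem_im γ A _).2 ⟨r, hr, by have := congrArg Subtype.val h3; simpa using this⟩
  intro g
  constructor
  · exact key t ht g
  · intro h
    have := key t⁻¹ (inv_mem ht) _ h
    simpa [mul_assoc] using this

end Local

/-- offenders from automorphisms of `T` -/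
theorem bd_of_aut (hOff : StOff.{u}) (hBD : StBD.{u}) {P : Type u} [Group P] [Finite P] (T : Sylow 2 P)
    (b : Blk (T : Subgroup P)) (β : MulAut ↥(T : Subgroup P))
    (hβ : ∃ w : ↥(T : Subgroup P), (w : P) ∈ ⁅pCore 2 P, pResidual 2 P⁆ ∧
      ((β w : ↥(T : Subgroup P)) : P) ∉ pCore 2 P) : Nonempty (BD (T : Subgroup P)) := by
  classical
  have hQT : pCore 2 P ≤ (T : Subgroup P) := by
    rw [← b.bw.CTW]; exact inf_le_left
  have hWn := W_normal (P := P)
  have hWT : (⁅pCore 2 P, pResidual 2 P⁆ : Subgroup P) ≤ (T : Subgroup P) := W_le.trans hQT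
  have hcomm : ∀ γ : MulAut ↥(T : Subgroup P), ∀ a ∈ im γ ⁅pCore 2 P, pResidual 2 P⁆,
      ∀ b ∈ im γ ⁅pCore 2 P, pResidual 2 P⁆, a * b = b * a := by
    intro γ a ha c hc
    obtain ⟨s, hs, rfl⟩ := (mem_im _ _ _).1 ha
    obtain ⟨t, ht, rfl⟩ := (mem_im _ _ _).1 hc
    have h1 : s * t = t * s := Subtype.ext (b.bw.W_comm _ hs _ (W_le ht))
    have h2 := congrArg (fun z => ((γ z : ↥(T : Subgroup P)) : P)) h1
    simpa using h2
  have hsq : ∀ γ : MulAut ↥(T : Subgroup P), ∀ a ∈ im γ ⁅pCore 2 P, pResidual 2 P⁆, a ^ 2 = 1 := by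
    intro γ a ha
    obtain ⟨s, hs, rfl⟩ := (mem_im _ _ _).1 ha
    have h1 : s ^ 2 = 1 := Subtype.ext (b.bw.W_sq _ hs)
    have h2 := congrArg (fun z => ((γ z : ↥(T : Subgroup P)) : P)) h1
    simpa using h2
  have hoff := fun γ => hOff T b (im γ ⁅pCore 2 P, pResidual 2 P⁆) (im_le γ _) (le_normalizer_im γ _)
    (hcomm γ) (hsq γ)
  -- `|W : C_W(W^γ)| = |W^{γ⁻¹} : W^{γ⁻¹} ∩ Q|`
  have hsym : ∀ γ : MulAut ↥(T : Subgroup P),
      (⁅pCore 2 P, pResidual 2 P⁆ ⊓ Subgroup.centralizer (im γ ⁅pCore 2 P, pResidual 2 P⁆ : Set P)).relIndex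
        ⁅pCore 2 P, pResidual 2 P⁆ =
      (pCore 2 P ⊓ im γ⁻¹ ⁅pCore 2 P, pResidual 2 P⁆).relIndex (im γ⁻¹ ⁅pCore 2 P, pResidual 2 P⁆) := by
    intro γ
    rw [← Subgroup.relIndex_subgroupOf hWT, ← Subgroup.relIndex_subgroupOf (im_le γ⁻¹ _)]
    rw [im_subgroupOf]
    have hinj : Function.Injective (γ⁻¹ : MulAut ↥(T : Subgroup P)).toMonoidHom := MulEquiv.injective γ⁻¹
    rw [← Subgroup.relIndex_map_map_of_injective _ _ hinj]
    congr 1
    ext t
    simp only [Subgroup.mem_map, Subgroup.mem_subgroupOf, Subgroup.mem_inf, Subgroup.mem_centralizer_iff]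
    constructor
    · rintro ⟨s, ⟨hs, hc⟩, rfl⟩
      have hin : ((((γ⁻¹ : MulAut ↥(T : Subgroup P)) s : ↥(T : Subgroup P))) : P) ∈
          im γ⁻¹ ⁅pCore 2 P, pResidual 2 P⁆ := (mem_im _ _ _).2 ⟨s, hs, rfl⟩
      refine ⟨?_, hin⟩
      rw [← b.bw.CTW]
      refine ⟨((γ⁻¹ : MulAut ↥(T : Subgroup P)) s).2, Subgroup.mem_centralizer_iff.2 fun w hw => ?_⟩
      have h1 := hc ((γ ⟨w, hWT hw⟩ : ↥(T : Subgroup P)) : P) ((mem_im _ _ _).2 ⟨⟨w, hWT hw⟩, hw, rfl⟩)
      have h2 : γ ⟨w, hWT hw⟩ * s = s * γ ⟨w, hWT hw⟩ := Subtype.ext h1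
      have h3 := congrArg (fun z => (((γ⁻¹ : MulAut ↥(T : Subgroup P)) z : ↥(T : Subgroup P)) : P)) h2
      simpa using h3
    · rintro ⟨hQ, hW⟩
      obtain ⟨s, hs, hst⟩ := (mem_im _ _ _).1 hW
      refine ⟨s, ⟨hs, fun w hw => ?_⟩, Subtype.ext hst⟩
      obtain ⟨v, hv, rfl⟩ := (mem_im _ _ _).1 hw
      rw [← hst] at hQ
      have h1 := b.bw.W_comm _ hv _ hQ
      have h2 : v * (γ⁻¹ : MulAut ↥(T : Subgroup P)) s = (γ⁻¹ : MulAut ↥(T : Subgroup P)) s * v := Subtype.ext h1
      have h3 := congrArg (fun z => ((γ z : ↥(T : Subgroup P)) : P)) h2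
      simpa using h3
  refine hBD T b (im β ⁅pCore 2 P, pResidual 2 P⁆) (im_le β _) (le_normalizer_im β _) (hcomm β) (hsq β) ?_ ?_
  · intro hle
    obtain ⟨w, hw, hn⟩ := hβ
    exact hn (hle ((mem_im _ _ _).2 ⟨w, hw, rfl⟩))
  · rw [hsym β]
    refine (hoff β⁻¹).trans ?_
    rw [hsym β⁻¹, inv_inv]


/-- subgroups between `[Q, O²(P)]` and `Q` normalized by `T` are normal in `P` -/
theorem normal_of_between {P : Type*} [Group P] [Finite P] (T : Sylow 2 P) {X : Subgroup P}
    (h1 : ⁅pCore 2 P, pResidual 2 P⁆ ≤ X) (h2 : X ≤ pCore 2 P)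
    (h3 : (T : Subgroup P) ≤ Subgroup.normalizer (X : Set P)) : X.Normal := by
  rw [← Subgroup.normalizer_eq_top_iff, ← top_le_iff, ← Transfer.Residual.pResidual_sup_sylow T]
  refine sup_le ?_ h3
  have hK := Transfer.Residual.pResidual_characteristic (G := P) 2
  have key : ∀ k ∈ pResidual 2 P, ∀ x ∈ X, k * x * k⁻¹ ∈ X := by
    intro k hk x hx
    have h4 : ⁅x, k⁆ ∈ X := h1 (Subgroup.commutator_mem_commutator (h2 hx) hk)
    have h5 : k * x * k⁻¹ = ⁅x, k⁆⁻¹ * x := by
      simp only [commutatorElement_def]; group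
    rw [h5]
    exact X.mul_mem (X.inv_mem h4) hx
  intro k hk
  rw [Subgroup.mem_normalizer_iff]
  intro x
  refine ⟨key k hk x, fun h => ?_⟩
  have := key k⁻¹ (inv_mem hk) _ h
  simpa [mul_assoc] using this

theorem conj_range_map {G H : Type*} [Group G] [Group H] (e : G ≃* H) :
    (MulAut.conj : H →* MulAut H).range =
      ((MulAut.conj : G →* MulAut G).range).map (MulAut.congr e).toMonoidHom := by
  ext γ
  constructor
  · rintro ⟨h, rfl⟩
    refine ⟨MulAut.conj (e.symm h), ⟨e.symm h, rfl⟩, ?_⟩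
    ext z
    simp [MulAut.congr]
  · rintro ⟨-, ⟨g, rfl⟩, rfl⟩
    refine ⟨e g, ?_⟩
    ext z
    simp [MulAut.congr]

/-- conjugation by an element of the normalizer -/
theorem exists_conj_aut {Ω : Type*} [Group Ω] {T : Subgroup Ω} {x : Ω}
    (hx : x ∈ Subgroup.normalizer (T : Set Ω)) :
    ∃ κ : MulAut T, ∀ t : T, ((κ t : T) : Ω) = x * t * x⁻¹ :=
  ⟨T.normalizerMonoidHom ⟨x, hx⟩, fun _ => rfl⟩

theorem exists_conf (hBlk : StBlk.{u}) (hOff : StOff.{u}) (hBD : StBD.{u}) (hTop : StTop.{u})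
    (hSwap : StSwap.{u}) (hTwo : StTwoDir.{u}) (hKill : StKill.{u}) (hConf : StConf.{u})
    {Ω : Type u} [Group Ω] {S : Subgroup Ω} [Finite S] (hS : IsPGroup 2 S) (F : FusionSystem S)
    (hF : F.IsSaturated 2) (hmin : HMin F) (T : Subgroup Ω) (P : Type u) [Group P] (s : Sit F T P) :
    ∃ (K : Type) (_ : Field K) (_ : Fintype K) (V : Subgroup Ω) (x : Ω), Nonempty (Conf F K V T x) := by
  classical
  have : Finite P := s.fin
  obtain ⟨R, hR⟩ := s.syl
  let e : T ≃* s.ι.range := MonoidHom.ofInjective s.inj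
  have he : ∀ t : T, ((e t : s.ι.range) : P) = s.ι t := fun t => rfl
  -- transport of subgroups
  have hmap : ∀ D : Subgroup s.ι.range, (D.comap e.toMonoidHom).map s.ι = D.map s.ι.range.subtype := by
    intro D
    ext g
    simp only [Subgroup.mem_map, Subgroup.mem_comap]
    constructor
    · rintro ⟨t, ht, rfl⟩
      exact ⟨e t, ht, rfl⟩
    · rintro ⟨y, hy, rfl⟩
      obtain ⟨t, rfl⟩ := e.surjective y
      exact ⟨t, hy, rfl⟩
  have hcomap : ∀ (D : Subgroup s.ι.range), D ≠ ⊥ → D.comap e.toMonoidHom ≠ ⊥ := by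
    intro D hD h
    apply hD
    rw [eq_bot_iff]
    intro y hy
    obtain ⟨t, rfl⟩ := e.surjective y
    have : t ∈ D.comap e.toMonoidHom := hy
    rw [h, Subgroup.mem_bot] at this
    rw [this, map_one]
    exact one_mem _
  -- no characteristic subgroups
  have hnc : ∀ C : Subgroup s.ι.range, C.Characteristic → C ≠ ⊥ → ¬ (C.map s.ι.range.subtype).Normal := by
    intro C hC hne hn
    refine s.nchar (C.comap e.toMonoidHom) ?_ (hcomap C hne) (by rw [hmap]; exact hn)
    rw [Subgroup.characteristic_iff_comap_eq]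
    intro φ
    ext t
    have h1 := (Subgroup.characteristic_iff_comap_eq.1 hC) (MulAut.congr e φ)
    have h2 : e t ∈ C.comap (MulAut.congr e φ).toMonoidHom ↔ e t ∈ C := by rw [h1]
    have h3 : (MulAut.congr e φ) (e t) = e (φ t) := by simp [MulAut.congr]
    rw [Subgroup.mem_comap] at h2
    change (MulAut.congr e φ) (e t) ∈ C ↔ e t ∈ C at h2
    rw [h3] at h2
    exact h2
  -- blocks
  obtain ⟨b⟩ : Nonempty (Blk s.ι.range) := by
    have h1 := hBlk R s.pmin s.char2
    rw [hR] at h1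
    exact h1 hnc
  have hbd : ∀ β : MulAut ↥s.ι.range,
      (∃ w : ↥s.ι.range, (w : P) ∈ ⁅pCore 2 P, pResidual 2 P⁆ ∧ ((β w : ↥s.ι.range) : P) ∉ pCore 2 P) →
      Nonempty (BD s.ι.range) := by
    have h1 := fun b => bd_of_aut hOff hBD R b
    rw [hR] at h1
    exact h1 b
  have hTne : s.ι.range ≠ ⊥ := by
    intro h
    apply s.T_ne
    rw [eq_bot_iff]
    intro t ht
    have h1 : s.ι ⟨t, ht⟩ ∈ s.ι.range := ⟨_, rfl⟩
    rw [h, Subgroup.mem_bot] at h1
    have h2 : (⟨t, ht⟩ : T) = 1 := s.inj (by rw [h1, map_one])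
    exact Subgroup.mem_bot.2 (congrArg Subtype.val h2)
  -- `W ≠ 1`
  have hWne : (⁅pCore 2 P, pResidual 2 P⁆ : Subgroup P) ≠ ⊥ := by
    intro hW
    have hTQ : s.ι.range ≤ pCore 2 P := by
      intro t ht
      refine b.faith t ht fun w hw => ?_
      rw [hW, Subgroup.mem_bot] at hw
      rw [hw, commutatorElement_one_right]
      exact one_mem _
    have hQT : pCore 2 P ≤ s.ι.range := by rw [← b.bw.CTW]; exact inf_le_left
    have hEq : s.ι.range = pCore 2 P := le_antisymm hTQ hQT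
    refine hnc ⊤ inferInstance ?_ ?_
    · intro h
      apply hTne
      rw [eq_bot_iff]
      intro t ht
      have h1 : (⟨t, ht⟩ : s.ι.range) ∈ (⊤ : Subgroup s.ι.range) := Subgroup.mem_top _
      rw [h, Subgroup.mem_bot] at h1
      exact Subgroup.mem_bot.2 (congrArg Subtype.val h1)
    · rw [← MonoidHom.range_eq_map, Subgroup.range_subtype, hEq]
      exact Lib.Cores.pCore_normal (G := P) 2
  rcases s.alt with ⟨rfl, hinv⟩ | ⟨⟨x, hxS, hxn, hxT, hx2⟩, hinv⟩
  · -- `T = S`
    exfalso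
    obtain ⟨hle, hodd⟩ := odd_index_top hS hF
    have h1 := hTop R
    rw [hR] at h1
    obtain ⟨D, hD, hDn, hDinv⟩ := h1 hTne b.bw hbd ((F.autGroup T).map (MulAut.congr e).toMonoidHom)
      (by
        rw [conj_range_map e]
        exact Subgroup.map_mono hle)
      (by
        have hinj : Function.Injective (MulAut.congr e).toMonoidHom := (MulAut.congr e).injective
        rw [conj_range_map e, Subgroup.relIndex_map_map_of_injective _ _ hinj]
        exact hodd) hWne
    refine hinv (D.comap e.toMonoidHom) (hcomap D hD) ?_ (by rw [hmap]; exact hDn)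
    intro β hβ
    have h2 : β ∈ F.autGroup T := (mem_autGroup_iff F le_rfl β).2 hβ
    have h3 := hDinv (MulAut.congr e β) ⟨β, h2, rfl⟩
    ext t
    rw [Subgroup.mem_map]
    constructor
    · rintro ⟨t', ht', rfl⟩
      have h4 : (MulAut.congr e β) (e t') ∈ D.map (MulAut.congr e β).toMonoidHom := ⟨e t', ht', rfl⟩
      rw [h3] at h4
      have h5 : (MulAut.congr e β) (e t') = e (β t') := by simp [MulAut.congr]
      rw [h5] at h4
      exact h4
    · intro ht
      have h4 : e t ∈ D.map (MulAut.congr e β).toMonoidHom := by rw [h3]; exact ht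
      obtain ⟨y, hy, h5⟩ := h4
      obtain ⟨t', rfl⟩ := e.surjective y
      refine ⟨t', hy, e.injective ?_⟩
      rw [← h5]
      change e (β t') = (MulAut.congr e β) (e t')
      simp [MulAut.congr]
  · -- `T < S`
    obtain ⟨κ, hκ⟩ := exists_conj_aut hxn
    let ξ : MulAut s.ι.range := MulAut.congr e κ
    have hξe : ∀ t : T, ξ (e t) = e (κ t) := by
      intro t
      change (MulAut.congr e κ) (e t) = _
      simp [MulAut.congr]
    have hξ : ∀ t : T, ∀ h : x * t * x⁻¹ ∈ T,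
        ((ξ ⟨s.ι t, ⟨t, rfl⟩⟩ : ↥(s.ι.range)) : P) = s.ι ⟨x * t * x⁻¹, h⟩ := by
      intro t h
      have h1 := hξe t
      have h2 := congrArg Subtype.val h1
      rw [he] at h2
      have h3 : κ t = ⟨x * t * x⁻¹, h⟩ := Subtype.ext (hκ t)
      rw [h3] at h2
      exact h2
    have hξξ : ξ * ξ = MulAut.conj (e ⟨x ^ 2, hx2⟩) := by
      ext y
      obtain ⟨t, rfl⟩ := e.surjective y
      rw [MulAut.mul_apply, hξe, hξe, MulAut.conj_apply, ← map_mul, ← map_inv, ← map_mul]
      congr 2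
      apply Subtype.ext
      rw [hκ, hκ]
      push_cast
      rw [pow_two]
      group
    -- no invariant normal subgroups
    have hno : ∀ D : Subgroup s.ι.range, D ≠ ⊥ → (D.map s.ι.range.subtype).Normal →
        D.map ξ.toMonoidHom ≠ D := by
      intro D hD hDn hDξ
      refine hinv x hxS hxn hxT ((D.comap e.toMonoidHom).map T.subtype) ?_ ?_ ?_ ?_
      · exact Subgroup.map_subtype_le _
      · intro h
        rw [Subgroup.map_eq_bot_iff_of_injective _ T.subtype_injective] at h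
        exact hcomap D hD h
      · ext g
        unfold cj
        simp only [Subgroup.mem_map]
        constructor
        · rintro ⟨-, ⟨t, ht, rfl⟩, rfl⟩
          have h1 : e t ∈ D := ht
          have h2 : ξ (e t) ∈ D := by
            rw [← hDξ]
            exact ⟨e t, h1, rfl⟩
          rw [hξe] at h2
          exact ⟨κ t, h2, hκ t⟩
        · rintro ⟨t, ht, rfl⟩
          have h1 : e t ∈ D := ht
          rw [← hDξ] at h1
          obtain ⟨y, hy, h2⟩ := h1
          obtain ⟨t', rfl⟩ := e.surjective y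
          refine ⟨t', ⟨t', hy, rfl⟩, ?_⟩
          have h3 : κ t' = t := e.injective (by rw [← h2]; exact (hξe t').symm)
          rw [← h3]
          exact (hκ t').symm
      · have h1 : ((D.comap e.toMonoidHom).map T.subtype).subgroupOf T = D.comap e.toMonoidHom := by
          ext t
          simp [Subgroup.mem_subgroupOf]
        rw [h1, hmap]
        exact hDn
    -- block data
    obtain ⟨d⟩ : Nonempty (BD s.ι.range) := by
      apply hbd ξ
      by_contra hcon
      push Not at hcon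
      have hQT : pCore 2 P ≤ s.ι.range := by rw [← b.bw.CTW]; exact inf_le_left
      have hWn := W_normal (P := P)
      have hWT : (⁅pCore 2 P, pResidual 2 P⁆ : Subgroup P) ≤ s.ι.range := W_le.trans hQT
      have himQ : im ξ ⁅pCore 2 P, pResidual 2 P⁆ ≤ pCore 2 P := by
        intro g hg
        obtain ⟨t, ht, rfl⟩ := (mem_im _ _ _).1 hg
        exact hcon t ht
      have hXn : (⁅pCore 2 P, pResidual 2 P⁆ ⊔ im ξ ⁅pCore 2 P, pResidual 2 P⁆ : Subgroup P).Normal := by
        refine normal_of_between R le_sup_left (sup_le W_le himQ) ?_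
        rw [hR]
        have h1 : (s.ι.range) ≤ Subgroup.normalizer ((⁅pCore 2 P, pResidual 2 P⁆ : Subgroup P) : Set P) := by
          rw [Subgroup.normalizer_eq_top_iff.2 hWn]
          exact le_top
        have h2 := le_normalizer_im ξ (⁅pCore 2 P, pResidual 2 P⁆ : Subgroup P)
        exact (le_inf h1 h2).trans (Subgroup.normalizer_inf_normalizer_le_normalizer_sup _ _)
      set D : Subgroup s.ι.range := (⁅pCore 2 P, pResidual 2 P⁆ : Subgroup P).subgroupOf s.ι.range ⊔
        ((⁅pCore 2 P, pResidual 2 P⁆ : Subgroup P).subgroupOf s.ι.range).map ξ.toMonoidHom with hDdef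
      have hDmap : D.map s.ι.range.subtype =
          ⁅pCore 2 P, pResidual 2 P⁆ ⊔ im ξ ⁅pCore 2 P, pResidual 2 P⁆ := by
        rw [hDdef, Subgroup.map_sup, Subgroup.subgroupOf_map_subtype, inf_of_le_left hWT]
        rfl
      refine hno D ?_ (by rw [hDmap]; exact hXn) ?_
      · intro h
        rw [h, Subgroup.map_bot] at hDmap
        apply hWne
        rw [eq_bot_iff, hDmap]
        exact le_sup_left
      · rw [hDdef, Subgroup.map_sup, Subgroup.map_map]
        have h3 : ((⁅pCore 2 P, pResidual 2 P⁆ : Subgroup P).subgroupOf s.ι.range).map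
            (ξ.toMonoidHom.comp ξ.toMonoidHom) =
            (⁅pCore 2 P, pResidual 2 P⁆ : Subgroup P).subgroupOf s.ι.range := by
          have h4 : ξ.toMonoidHom.comp ξ.toMonoidHom = (MulAut.conj (e ⟨x ^ 2, hx2⟩)).toMonoidHom := by
            rw [← hξξ]; rfl
          rw [h4]
          have h5 : ((⁅pCore 2 P, pResidual 2 P⁆ : Subgroup P).subgroupOf s.ι.range).Normal := inferInstance
          exact Subgroup.Normal.map_conj_eq _ _
        rw [h3, sup_comm]
    have hsw : Swap s.ι.range ξ d := by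
      have h1 := hSwap R
      rw [hR] at h1
      exact h1 b.bw d ξ ⟨_, hξξ⟩ hno
    rcases d.dich with hB | hlin
    · exfalso
      have h2 : TwoDir s.ι.range ξ := by
        have h1 := hTwo R
        rw [hR] at h1
        exact h1 d ξ ⟨_, hξξ⟩ hsw hB
      exact hKill hS F hF hmin T P s x hxS hxn hxT hx2 hsw.comm ξ hξ h2
    · obtain ⟨K, i1, i2, V, c⟩ := hConf hS F hF T P s x hxS hxn hxT hx2 ξ hξ d hsw hlin
      exact ⟨K, i1, i2, V, x, c⟩


/-- Henke's theorem from the pieces. -/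
theorem henke (hSit : StSit.{u}) (hBlk : StBlk.{u}) (hOff : StOff.{u}) (hBD : StBD.{u}) (hTop : StTop.{u})
    (hSwap : StSwap.{u}) (hTwo : StTwoDir.{u}) (hKill : StKill.{u}) (hConf : StConf.{u})
    (hNor : StNor.{u}) (hEss : StEss.{u}) (hTyp : StTyp.{u}) (hField : StField.{u}) (hIdx : StIdx.{u})
    (hL : StL.{u}) (hSP : StSP.{u}) (hJ : StJ.{u}) (hQ : StQ.{u}) (hDih : StDih.{u}) (hSD : StSD.{u})
    (hHol : StHol.{u}) (hMax : StMax.{u})
    {Ω : Type u} [Group Ω] {S : Subgroup Ω} [Finite S] (hS : IsPGroup 2 S)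
    (F : FusionSystem S) (hF : F.IsSaturated 2) (hmin : HMin F)
    (N : FusionSystem S) (hNsat : N.IsSaturated 2) (hNle : N ≤ F) (hNne : N ≠ F) (hpar : HPar F N) :
    Concl F := by
  obtain ⟨T, P, _, ⟨s⟩⟩ := hSit hS F hF hmin N hNsat hNle hNne hpar
  obtain ⟨K, i1, i2, V, x, ⟨c⟩⟩ := exists_conf hBlk hOff hBD hTop hSwap hTwo hKill hConf hS F hF hmin T P s
  exact of_conf hNor hEss hTyp hField hIdx hL hSP hJ hQ hDih hSD hHol hMax hS F hF hmin K V T x c

end Cfsg.Agent.H756.HM
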